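import Mathlib
import Cfsg.Agent.Lib.Helper83.SnB.Q8MDefs

/-!
S2986 [Q8-M] sub-package [M-ONN]: orthogonal `A`'s, both blocks non-exceptional: the blocks
commute.
-/

set_option autoImplicit false

namespace Cfsg.Agent.Lib.Helper59.SnB

open Cfsg Cfsg.Agent.Lib.Helper41.SnB Cfsg.Agent.Lib.Helper34.SnB Cfsg.Agent.Lib.Helper83.SnB

universe u

/-- elements of a block normalize it -/
theorem mem_normalizer_of_mem {G : Type u} [Group G] (X : Subgroup G) {x : G} (hx : x ∈ X) :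
    x ∈ Subgroup.normalizer (X : Set G) :=
  Subgroup.le_normalizer hx

/-- if all elements of `E` commute with all elements of `F` then `⁅E, F⁆ = ⊥` -/
theorem comm_eq_bot_of_commute {G : Type u} [Group G] (E F : Subgroup G)
    (h : ∀ e ∈ E, ∀ f ∈ F, e * f = f * e) : ⁅E, F⁆ = ⊥ := by
  rw [Subgroup.commutator_eq_bot_iff_le_centralizer]
  intro e he
  rw [Subgroup.mem_centralizer_iff]
  intro f hf
  exact (h e he f hf).symm

/-- an element conjugating the two factors of a join into the join normalizes the join -/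
theorem sup_conj_mem {G : Type u} [Group G] (A B U : Subgroup G) (hU : U = A ⊔ B) (x : G)
    (hA : ∀ a ∈ A, x * a * x⁻¹ ∈ U) (hB : ∀ b ∈ B, x * b * x⁻¹ ∈ U) :
    ∀ u ∈ U, x * u * x⁻¹ ∈ U := by
  have hle : A ⊔ B ≤ U.comap (MulAut.conj x).toMonoidHom := by
    refine sup_le ?_ ?_
    · intro a ha
      rw [Subgroup.mem_comap, MulEquiv.coe_toMonoidHom, MulAut.conj_apply]
      exact hA a ha
    · intro b hb
      rw [Subgroup.mem_comap, MulEquiv.coe_toMonoidHom, MulAut.conj_apply]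
      exact hB b hb
  intro u hu
  have h := hle (hU ▸ hu)
  rw [Subgroup.mem_comap, MulEquiv.coe_toMonoidHom, MulAut.conj_apply] at h
  exact h

theorem pkgONN : Cfsg.Agent.Lib.Helper83.SnB.PkgONN.{u} := by
  intro G _ _ p _ S₀ E F KE KF zE zF gf oE oF hc1 hc2 nE nF
  classical
  -- `U = A_E ⊔ A_F`
  obtain ⟨U, hU⟩ : ∃ U : Subgroup G, U = Ab p E ⊔ Ab p F := ⟨_, rfl⟩
  have hAEU : Ab p E ≤ U := hU ▸ le_sup_left
  have hAFU : Ab p F ≤ U := hU ▸ le_sup_right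
  have hAEV : Ab p E ≤ Vb p G := oE.sb.AV
  have hAFV : Ab p F ≤ Vb p G := oF.sb.AV
  have hUP : U ≤ pCore p G := by
    rw [hU]
    exact sup_le (hAEV.trans gf.VP) (hAFV.trans gf.VP)
  -- elements of `K_E`, `K_F` normalize `U` and act trivially on `P / U`
  have hKE : ∀ k ∈ KE, (∀ u ∈ U, k * u * k⁻¹ ∈ U) ∧
      ∀ c ∈ pCore p G, k * c * k⁻¹ * c⁻¹ ∈ U := by
    intro k hk
    have hkE : k ∈ E := oE.q8.KX hk
    refine ⟨?_, ?_⟩
    · refine sup_conj_mem (Ab p E) (Ab p F) U hU k ?_ ?_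
      · intro a ha
        exact hAEU (oE.bf.nA k (mem_normalizer_of_mem E hkE) a ha)
      · intro b hb
        have : k * b * k⁻¹ = b := by rw [hc2 k hk b hb]; group
        rw [this]
        exact hAFU hb
    · intro c hc
      have := oE.b1.PXQ k hkE c hc
      rw [nE.1] at this
      exact hAEU this
  have hKF : ∀ l ∈ KF, (∀ u ∈ U, l * u * l⁻¹ ∈ U) ∧
      ∀ c ∈ pCore p G, l * c * l⁻¹ * c⁻¹ ∈ U := by
    intro l hl
    have hlF : l ∈ F := oF.q8.KX hl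
    refine ⟨?_, ?_⟩
    · refine sup_conj_mem (Ab p E) (Ab p F) U hU l ?_ ?_
      · intro a ha
        have : l * a * l⁻¹ = a := by rw [hc1 l hl a ha]; group
        rw [this]
        exact hAEU ha
      · intro b hb
        exact hAFU (oF.bf.nA l (mem_normalizer_of_mem F hlF) b hb)
    · intro c hc
      have := oF.b1.PXQ l hlF c hc
      rw [nF.1] at this
      exact hAFU this
  -- products
  have hmul : ∀ x y : G, ((∀ u ∈ U, x * u * x⁻¹ ∈ U) ∧
      ∀ c ∈ pCore p G, x * c * x⁻¹ * c⁻¹ ∈ U) → ((∀ u ∈ U, y * u * y⁻¹ ∈ U) ∧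
      ∀ c ∈ pCore p G, y * c * y⁻¹ * c⁻¹ ∈ U) → ((∀ u ∈ U, (x * y) * u * (x * y)⁻¹ ∈ U) ∧
      ∀ c ∈ pCore p G, (x * y) * c * (x * y)⁻¹ * c⁻¹ ∈ U) := by
    intro x y hx hy
    refine ⟨?_, ?_⟩
    · intro u hu
      have := hx.1 _ (hy.1 u hu)
      have e : x * y * u * (x * y)⁻¹ = x * (y * u * y⁻¹) * x⁻¹ := by group
      rw [e]
      exact this
    · intro c hc
      have h1 := hx.1 _ (hy.2 c hc)
      have h2 := hx.2 c hc
      have e : x * y * c * (x * y)⁻¹ * c⁻¹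
          = (x * (y * c * y⁻¹ * c⁻¹) * x⁻¹) * (x * c * x⁻¹ * c⁻¹) := by group
      rw [e]
      exact U.mul_mem h1 h2
  -- the complements commute
  have hcomm : ∀ k ∈ KE, ∀ l ∈ KF, k * l = l * k := by
    intro k hk l hl
    obtain ⟨g, hg⟩ : ∃ g : G, g = k * l * k⁻¹ * l⁻¹ := ⟨_, rfl⟩
    have hgS : g ∈ S₀ := by
      rw [hg]
      exact S₀.mul_mem (S₀.mul_mem (S₀.mul_mem (oE.q8.KS hk) (oF.q8.KS hl))
        (S₀.inv_mem (oE.q8.KS hk))) (S₀.inv_mem (oF.q8.KS hl))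
    have hgT : (∀ u ∈ U, g * u * g⁻¹ ∈ U) ∧ ∀ c ∈ pCore p G, g * c * g⁻¹ * c⁻¹ ∈ U := by
      rw [hg]
      exact hmul _ _ (hmul _ _ (hmul _ _ (hKE k hk) (hKF l hl)) (hKE k⁻¹ (KE.inv_mem hk)))
        (hKF l⁻¹ (KF.inv_mem hl))
    -- `g` centralizes `U`
    have hgA : ∀ a ∈ Ab p E, g * a = a * g := by
      intro a ha
      have h1 : l⁻¹ * a = a * l⁻¹ := hc1 l⁻¹ (KF.inv_mem hl) a ha
      have ha' : k⁻¹ * a * k⁻¹⁻¹ ∈ Ab p E :=
        oE.bf.nA k⁻¹ (mem_normalizer_of_mem E (oE.q8.KX (KE.inv_mem hk))) a ha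
      have h2 : l * (k⁻¹ * a * k⁻¹⁻¹) = (k⁻¹ * a * k⁻¹⁻¹) * l := hc1 l hl _ ha'
      rw [hg]
      calc k * l * k⁻¹ * l⁻¹ * a = k * l * k⁻¹ * (l⁻¹ * a) := by group
        _ = k * l * k⁻¹ * (a * l⁻¹) := by rw [h1]
        _ = k * (l * (k⁻¹ * a * k⁻¹⁻¹)) * k⁻¹ * l⁻¹ := by group
        _ = k * ((k⁻¹ * a * k⁻¹⁻¹) * l) * k⁻¹ * l⁻¹ := by rw [h2]
        _ = a * (k * l * k⁻¹ * l⁻¹) := by group
    have hgB : ∀ b ∈ Ab p F, g * b = b * g := by
      intro b hb
      have hb' : l⁻¹ * b * l⁻¹⁻¹ ∈ Ab p F :=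
        oF.bf.nA l⁻¹ (mem_normalizer_of_mem F (oF.q8.KX (KF.inv_mem hl))) b hb
      have h1 : k⁻¹ * (l⁻¹ * b * l⁻¹⁻¹) = (l⁻¹ * b * l⁻¹⁻¹) * k⁻¹ :=
        hc2 k⁻¹ (KE.inv_mem hk) _ hb'
      have h2 : k * b = b * k := hc2 k hk b hb
      rw [hg]
      calc k * l * k⁻¹ * l⁻¹ * b = k * l * (k⁻¹ * (l⁻¹ * b * l⁻¹⁻¹)) * l⁻¹ := by group
        _ = k * l * ((l⁻¹ * b * l⁻¹⁻¹) * k⁻¹) * l⁻¹ := by rw [h1]
        _ = (k * b) * l * k⁻¹ * l⁻¹ := by group
        _ = (b * k) * l * k⁻¹ * l⁻¹ := by rw [h2]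
        _ = b * (k * l * k⁻¹ * l⁻¹) := by group
    have hgU : ∀ u ∈ U, g * u = u * g := by
      have hle : U ≤ Subgroup.centralizer ({g} : Set G) := by
        rw [hU]
        refine sup_le ?_ ?_
        · intro a ha
          rw [Subgroup.mem_centralizer_iff]
          intro h hh
          rw [Set.mem_singleton_iff] at hh
          rw [hh]
          exact hgA a ha
        · intro b hb
          rw [Subgroup.mem_centralizer_iff]
          intro h hh
          rw [Set.mem_singleton_iff] at hh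
          rw [hh]
          exact hgB b hb
      intro u hu
      have := hle hu
      rw [Subgroup.mem_centralizer_iff] at this
      exact this g rfl
    have hgP : ∀ c ∈ pCore p G, g * c = c * g :=
      coprimeChain (pCore p G) U g gf.Pp (gf.S2 g hgS) hUP hgU hgT.2
    have hg1 : g = 1 := gf.ST g hgS hgP
    rw [hg] at hg1
    calc k * l = (k * l * k⁻¹ * l⁻¹) * l * k := by group
      _ = l * k := by rw [hg1, one_mul]
  -- conclusion
  apply comm_eq_bot_of_commute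
  intro e he f hf
  obtain ⟨a, ha, k, hk, rfl⟩ := oE.q8.dec e he
  obtain ⟨b, hb, l, hl, rfl⟩ := oF.q8.dec f hf
  rw [nE.1] at ha
  rw [nF.1] at hb
  have hab : a * b = b * a := gf.Vc a (hAEV ha) b (gf.VP (hAFV hb))
  have hal : l * a = a * l := hc1 l hl a ha
  have hkb : k * b = b * k := hc2 k hk b hb
  have hkl : k * l = l * k := hcomm k hk l hl
  calc a * k * (b * l) = a * (k * b) * l := by group
    _ = a * (b * k) * l := by rw [hkb]
    _ = (a * b) * (k * l) := by group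
    _ = (b * a) * (l * k) := by rw [hab, hkl]
    _ = b * (a * l) * k := by group
    _ = b * (l * a) * k := by rw [hal]
    _ = b * l * (a * k) := by group

end Cfsg.Agent.Lib.Helper59.SnB
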