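import Mathlib
import Cfsg.Agent.Lib.Helper83.SnB.Q8MDefs
import Cfsg.Agent.Lib.Helper59.SnB.Q8MONN

/-!
S2986 [Q8-M] sub-package [M-OXN]: orthogonal `A`'s, `E` exceptional, `F` not: the blocks
commute.
-/

set_option autoImplicit false

namespace Cfsg.Agent.Lib.Helper59.SnB

open Cfsg Cfsg.Agent.Lib.Helper41.SnB Cfsg.Agent.Lib.Helper34.SnB Cfsg.Agent.Lib.Helper83.SnB

universe u

/-- the commutator identity behind "`[k, l]` is trivial on `P / A_F`" -/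
theorem oxn_identity {G : Type u} [Group G] (k l c b₁ b₂ b₃ c' : G)
    (h1 : b₁ = l⁻¹ * c * l * c⁻¹) (h2 : c' = k⁻¹ * c * k) (h3 : b₂ = l * b₁ * l⁻¹)
    (h4 : b₃ = l * c' * l⁻¹ * c'⁻¹) (hk1 : k⁻¹ * b₁ = b₁ * k⁻¹) (hk2 : k * b₂ = b₂ * k)
    (hk3 : k * b₃ = b₃ * k) :
    k * l * k⁻¹ * l⁻¹ * c * (k * l * k⁻¹ * l⁻¹)⁻¹ * c⁻¹ = b₂ * b₃ := by
  calc k * l * k⁻¹ * l⁻¹ * c * (k * l * k⁻¹ * l⁻¹)⁻¹ * c⁻¹
      = k * l * (k⁻¹ * (l⁻¹ * c * l * c⁻¹)) * c * k * l⁻¹ * k⁻¹ * c⁻¹ := by group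
    _ = k * l * (k⁻¹ * b₁) * c * k * l⁻¹ * k⁻¹ * c⁻¹ := by rw [← h1]
    _ = k * l * (b₁ * k⁻¹) * c * k * l⁻¹ * k⁻¹ * c⁻¹ := by rw [hk1]
    _ = k * (l * b₁ * l⁻¹) * (l * (k⁻¹ * c * k) * l⁻¹ * (k⁻¹ * c * k)⁻¹) * (k⁻¹ * c * k)
          * k⁻¹ * c⁻¹ := by group
    _ = k * b₂ * b₃ * c' * k⁻¹ * c⁻¹ := by rw [← h2, ← h3, ← h4]
    _ = (k * b₂) * b₃ * c' * k⁻¹ * c⁻¹ := by group
    _ = (b₂ * k) * b₃ * c' * k⁻¹ * c⁻¹ := by rw [hk2]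
    _ = b₂ * (k * b₃) * c' * k⁻¹ * c⁻¹ := by group
    _ = b₂ * (b₃ * k) * c' * k⁻¹ * c⁻¹ := by rw [hk3]
    _ = b₂ * b₃ * (k * (k⁻¹ * c * k) * k⁻¹ * c⁻¹) := by rw [h2]; group
    _ = b₂ * b₃ := by group

theorem pkgOXN : Cfsg.Agent.Lib.Helper83.SnB.PkgOXN.{u} := by
  intro G _ _ p _ S₀ E F KE KF zE zF gf oE oF hc1 hc2 xE nF
  classical
  have hAFV : Ab p F ≤ Vb p G := oF.sb.AV
  have hAFP : Ab p F ≤ pCore p G := hAFV.trans gf.VP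
  -- the complements commute
  have hcomm : ∀ k ∈ KE, ∀ l ∈ KF, k * l = l * k := by
    intro k hk l hl
    obtain ⟨g, hg⟩ : ∃ g : G, g = k * l * k⁻¹ * l⁻¹ := ⟨_, rfl⟩
    have hgS : g ∈ S₀ := by
      rw [hg]
      exact S₀.mul_mem (S₀.mul_mem (S₀.mul_mem (oE.q8.KS hk) (oF.q8.KS hl))
        (S₀.inv_mem (oE.q8.KS hk))) (S₀.inv_mem (oF.q8.KS hl))
    have hgB : ∀ b ∈ Ab p F, g * b = b * g := by
      intro b hb
      have hb' : l⁻¹ * b * l⁻¹⁻¹ ∈ Ab p F :=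
        oF.bf.nA l⁻¹ (mem_normalizer_of_mem F (oF.q8.KX (KF.inv_mem hl))) b hb
      have h1 : k⁻¹ * (l⁻¹ * b * l⁻¹⁻¹) = (l⁻¹ * b * l⁻¹⁻¹) * k⁻¹ :=
        hc2 k⁻¹ (KE.inv_mem hk) _ hb'
      have h2 : k * b = b * k := hc2 k hk b hb
      rw [hg]
      calc k * l * k⁻¹ * l⁻¹ * b = k * l * (k⁻¹ * (l⁻¹ * b * l⁻¹⁻¹)) * l⁻¹ := by group
        _ = k * l * ((l⁻¹ * b * l⁻¹⁻¹) * k⁻¹) * l⁻¹ := by rw [h1]
        _ = (k * b) * l * k⁻¹ * l⁻¹ := by group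
        _ = (b * k) * l * k⁻¹ * l⁻¹ := by rw [h2]
        _ = b * (k * l * k⁻¹ * l⁻¹) := by group
    have hgc : ∀ c ∈ pCore p G, g * c * g⁻¹ * c⁻¹ ∈ Ab p F := by
      intro c hc
      have hb1 : l⁻¹ * c * l * c⁻¹ ∈ Ab p F := by
        have := oF.b1.PXQ l⁻¹ (oF.q8.KX (KF.inv_mem hl)) c hc
        rw [nF.1, inv_inv] at this
        exact this
      have hc' : k⁻¹ * c * k ∈ pCore p G := by
        have := gf.Pn k⁻¹ c hc
        rw [inv_inv] at this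
        exact this
      have hb3 : l * (k⁻¹ * c * k) * l⁻¹ * (k⁻¹ * c * k)⁻¹ ∈ Ab p F := by
        have := oF.b1.PXQ l (oF.q8.KX hl) _ hc'
        rw [nF.1] at this
        exact this
      have hb2 : l * (l⁻¹ * c * l * c⁻¹) * l⁻¹ ∈ Ab p F :=
        oF.bf.nA l (mem_normalizer_of_mem F (oF.q8.KX hl)) _ hb1
      have e := oxn_identity k l c _ _ _ _ rfl rfl rfl rfl
        (hc2 k⁻¹ (KE.inv_mem hk) _ hb1) (hc2 k hk _ hb2) (hc2 k hk _ hb3)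
      rw [hg, e]
      exact (Ab p F).mul_mem hb2 hb3
    have hgP : ∀ c ∈ pCore p G, g * c = c * g :=
      coprimeChain (pCore p G) (Ab p F) g gf.Pp (gf.S2 g hgS) hAFP hgB hgc
    have hg1 : g = 1 := gf.ST g hgS hgP
    rw [hg] at hg1
    calc k * l = (k * l * k⁻¹ * l⁻¹) * l * k := by group
      _ = l * k := by rw [hg1, one_mul]
  -- `Q_E` centralizes `z_F`
  have hzz : Commute zF zE := (hcomm zE oE.q8.zK zF oF.q8.zK).symm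
  have hQz : ∀ u ∈ Qb p E, zF * u = u * zF := by
    have hle : Subgroup.closure {g : G | ∃ c ∈ pCore p G, g = zE * c * zE⁻¹ * c⁻¹}
        ≤ Subgroup.centralizer ({zF} : Set G) := by
      rw [Subgroup.closure_le]
      rintro g ⟨c, hc, rfl⟩
      rw [SetLike.mem_coe, Subgroup.mem_centralizer_iff]
      intro h hh
      rw [Set.mem_singleton_iff] at hh
      rw [hh]
      obtain ⟨u, hu, c₁, hc₁, hcu, hzc₁⟩ := oF.PQC c hc
      rw [nF.1] at hu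
      have hu1 : zE * u = u * zE := hc2 zE oE.q8.zK u hu
      have hd : zE * c₁ * zE⁻¹ * c₁⁻¹ ∈ pCore p G :=
        oE.sb.QP (oE.b1.PXQ zE (oE.q8.KX oE.q8.zK) c₁ hc₁)
      have hu2 : u * (zE * c₁ * zE⁻¹ * c₁⁻¹) = (zE * c₁ * zE⁻¹ * c₁⁻¹) * u :=
        gf.Vc u (hAFV hu) _ hd
      have e : zE * c * zE⁻¹ * c⁻¹ = zE * c₁ * zE⁻¹ * c₁⁻¹ := by
        rw [hcu]
        calc zE * (u * c₁) * zE⁻¹ * (u * c₁)⁻¹ = (zE * u) * c₁ * zE⁻¹ * c₁⁻¹ * u⁻¹ := by group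
          _ = (u * zE) * c₁ * zE⁻¹ * c₁⁻¹ * u⁻¹ := by rw [hu1]
          _ = (u * (zE * c₁ * zE⁻¹ * c₁⁻¹)) * u⁻¹ := by group
          _ = ((zE * c₁ * zE⁻¹ * c₁⁻¹) * u) * u⁻¹ := by rw [hu2]
          _ = zE * c₁ * zE⁻¹ * c₁⁻¹ := by group
      rw [e]
      have c2 : Commute zF c₁ := hzc₁
      exact (((hzz.mul_right c2).mul_right hzz.inv_right).mul_right c2.inv_right).eq
    intro u hu
    have hu' : u ∈ Subgroup.closure {g : G | ∃ c ∈ pCore p G, g = zE * c * zE⁻¹ * c⁻¹} := by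
      rw [← oE.ZQ]
      exact hu
    have := hle hu'
    rw [Subgroup.mem_centralizer_iff] at this
    exact this zF rfl
  have hKFQ : ∀ l ∈ KF, ∀ u ∈ Qb p E, l * u = u * l :=
    fun l hl u hu => oF.CP u (oE.sb.QP hu) (hQz u hu) l hl
  -- conclusion
  apply comm_eq_bot_of_commute
  intro e he f hf
  obtain ⟨u, hu, k, hk, rfl⟩ := oE.q8.dec e he
  obtain ⟨b, hb, l, hl, rfl⟩ := oF.q8.dec f hf
  rw [nF.1] at hb
  have hub : b * u = u * b := gf.Vc b (hAFV hb) u (oE.sb.QP hu)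
  have hul : l * u = u * l := hKFQ l hl u hu
  have hkb : k * b = b * k := hc2 k hk b hb
  have hkl : k * l = l * k := hcomm k hk l hl
  calc u * k * (b * l) = u * (k * b) * l := by group
    _ = u * (b * k) * l := by rw [hkb]
    _ = (u * b) * (k * l) := by group
    _ = (b * u) * (l * k) := by rw [hub, hkl]
    _ = b * (u * l) * k := by group
    _ = b * (l * u) * k := by rw [hul]
    _ = b * l * (u * k) := by group

end Cfsg.Agent.Lib.Helper59.SnB
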